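import Mathlib
import Cfsg.Agent.Lib.Helper87.FrobFix

/-!
# S3814 tool (T2')

`K, W ≤ G` (finite), `g ∈ G` normalizes `K` and `W`, `K` normalizes `W`, `W` abelian,
`|K|`, `|W|` coprime, every `g ^ i ≠ 1` is fixed-point-free on `K` and `C_W(g) = 1`.
Then `K` centralizes `W`.  (`frob_fix` of helper87 with `T = zpowers g` acting on `W`; the norm
`∏_t t w t⁻¹` is `g`-fixed, hence `1`.)
-/

set_option autoImplicit false

universe u

namespace Cfsg.Agent.Lib.Helper29.FP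

/-- **(T2')** -/
theorem t2' {G : Type u} [Group G] [Finite G] (K W : Subgroup G) (g : G)
    (hgK : ∀ k ∈ K, g * k * g⁻¹ ∈ K) (hgW : ∀ w ∈ W, g * w * g⁻¹ ∈ W)
    (hKW : ∀ k ∈ K, ∀ w ∈ W, k * w * k⁻¹ ∈ W)
    (hWab : ∀ a ∈ W, ∀ b ∈ W, a * b = b * a)
    (hcop : (Nat.card K).Coprime (Nat.card W))
    (hfpf : ∀ i : ℕ, g ^ i ≠ 1 → ∀ k ∈ K, g ^ i * k = k * g ^ i → k = 1)
    (hfix : ∀ w ∈ W, g * w = w * g → w = 1) :
    ∀ k ∈ K, ∀ w ∈ W, k * w = w * k := by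
  classical
  letI : CommGroup ↥W :=
    { W.toGroup with mul_comm := fun a b => Subtype.ext (hWab a a.2 b b.2) }
  obtain ⟨N, hN⟩ : ∃ N : Subgroup G,
      N = Subgroup.normalizer (K : Set G) ⊓ Subgroup.normalizer (W : Set G) := ⟨_, rfl⟩
  have hNK : N ≤ Subgroup.normalizer (K : Set G) := hN ▸ inf_le_left
  have hNW : N ≤ Subgroup.normalizer (W : Set G) := hN ▸ inf_le_right
  have hgN : g ∈ N := by
    rw [hN]
    exact ⟨Subgroup.mem_normalizer_fintype (fun n hn => hgK n hn),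
      Subgroup.mem_normalizer_fintype (fun n hn => hgW n hn)⟩
  have hKN : K ≤ N := by
    intro k hk
    rw [hN]
    exact ⟨Subgroup.le_normalizer hk,
      Subgroup.mem_normalizer_fintype (fun n hn => hKW k hk n hn)⟩
  haveI hKnorm : (K.subgroupOf N).Normal := by
    refine ⟨fun k hk x => ?_⟩
    rw [Subgroup.mem_subgroupOf] at hk ⊢
    exact (hNK x.2 (k : G)).mp hk
  letI : Fintype ↥(K.subgroupOf N) := Fintype.ofFinite _
  letI : Fintype ↥(Subgroup.zpowers g) := Fintype.ofFinite _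
  obtain ⟨ρ, hρ⟩ : ∃ ρ : ↥N →* MulAut ↥W,
      ρ = W.normalizerMonoidHom.comp (Subgroup.inclusion hNW) := ⟨_, rfl⟩
  have hρapp : ∀ (x : ↥N) (w : ↥W), ((ρ x w : ↥W) : G) = (x : G) * (w : G) * (x : G)⁻¹ := by
    intro x w
    rw [hρ]
    rfl
  obtain ⟨j, hj⟩ : ∃ j : ↥(Subgroup.zpowers g) →* ↥N,
      j = Subgroup.inclusion ((Subgroup.zpowers_le).mpr hgN) := ⟨_, rfl⟩
  have hjapp : ∀ t : ↥(Subgroup.zpowers g), ((j t : ↥N) : G) = (t : G) := by
    intro t
    rw [hj]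
    rfl
  have h1 : ∀ t : ↥(Subgroup.zpowers g), t ≠ 1 → ∀ k ∈ K.subgroupOf N,
      j t * k * (j t)⁻¹ = k → k = 1 := by
    intro t ht k hk hconj
    obtain ⟨t, htm⟩ := t
    obtain ⟨i, hi⟩ : ∃ i : ℕ, g ^ i = t := by
      have h2 := (mem_powers_iff_mem_zpowers (x := g) (y := t)).mpr htm
      exact (Submonoid.mem_powers_iff _ _).mp h2
    subst hi
    have hne : g ^ i ≠ 1 := by
      intro h
      apply ht
      exact Subtype.ext h
    rw [Subgroup.mem_subgroupOf] at hk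
    have h3 := congrArg Subtype.val hconj
    simp only [Subgroup.coe_mul, Subgroup.coe_inv, hjapp] at h3
    have h4 : g ^ i * (k : G) = (k : G) * g ^ i := by
      calc g ^ i * (k : G) = (g ^ i * (k : G) * (g ^ i)⁻¹) * g ^ i := by group
        _ = (k : G) * g ^ i := by rw [h3]
    exact Subtype.ext (hfpf i hne k hk h4)
  have h2 : ∀ u ∈ (⊤ : Subgroup ↥W), ∏ t : ↥(Subgroup.zpowers g), ρ (j t) u = 1 := by
    intro u _
    obtain ⟨g₀, hg₀⟩ : ∃ g₀ : ↥(Subgroup.zpowers g), (g₀ : G) = g :=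
      ⟨⟨g, Subgroup.mem_zpowers g⟩, rfl⟩
    obtain ⟨P, hPdef⟩ : ∃ P : ↥W, P = ∏ t : ↥(Subgroup.zpowers g), ρ (j t) u := ⟨_, rfl⟩
    have hP : ρ (j g₀) P = P := by
      rw [hPdef, map_prod, ← Equiv.prod_comp (Equiv.mulLeft g₀) (fun t => ρ (j t) u)]
      apply Finset.prod_congr rfl
      intro t _
      show ρ (j g₀) (ρ (j t) u) = ρ (j (g₀ * t)) u
      rw [map_mul, map_mul, MulAut.mul_apply]
    have h3 := congrArg Subtype.val hP
    rw [hρapp, hjapp, hg₀] at h3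
    have h4 : (P : G) = 1 := by
      apply hfix _ P.2
      calc g * (P : G) = (g * (P : G) * g⁻¹) * g := by group
        _ = (P : G) * g := by rw [h3]
    rw [← hPdef]
    exact Subtype.ext h4
  have h3 : ∀ u ∈ (⊤ : Subgroup ↥W), ∃ m : ℕ, u ^ (Nat.card ↥W) ^ m = 1 := by
    intro u _
    refine ⟨1, ?_⟩
    rw [pow_one]
    exact pow_card_eq_one'
  have h4 : (Fintype.card ↥(K.subgroupOf N)).Coprime (Nat.card ↥W) := by
    have h5 : Fintype.card ↥(K.subgroupOf N) = Nat.card ↥K := by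
      rw [← Nat.card_eq_fintype_card]
      exact Nat.card_congr (Subgroup.subgroupOfEquivOfLe hKN).toEquiv
    rw [h5]
    exact hcop
  have key := Cfsg.Agent.Lib.Helper87.frob_fix ρ (K.subgroupOf N) j h1 (⊤ : Subgroup ↥W)
    (fun _ _ _ => Subgroup.mem_top _) h2 h3 h4
  intro k hk w hw
  have h5 := key ⟨k, hKN hk⟩ (by rw [Subgroup.mem_subgroupOf]; exact hk) ⟨w, hw⟩
    (Subgroup.mem_top _)
  have h6 := congrArg Subtype.val h5
  rw [hρapp] at h6
  calc k * w = (k * w * k⁻¹) * k := by group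
    _ = w * k := by rw [h6]

end Cfsg.Agent.Lib.Helper29.FP
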